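import Mathlib

/-! Homogeneous groups: every isomorphism between subgroups extends to an automorphism. -/

set_option autoImplicit false

namespace Cfsg.Agent.Hmg

open Subgroup

/-- every isomorphism between two subgroups is the restriction of an automorphism -/
def HG (G : Type*) [Group G] : Prop :=
  ∀ (A B : Subgroup G) (e : A ≃* B), ∃ φ : G ≃* G, ∀ a : A, φ (a : G) = (e a : G)

variable {G : Type*} [Group G]

theorem HG.ext (h : HG G) {X : Type*} [Group X] (f g : X →* G) (hf : Function.Injective f)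
    (hg : Function.Injective g) : ∃ φ : G ≃* G, ∀ x, φ (f x) = g x := by
  obtain ⟨φ, hφ⟩ := h _ _ ((MonoidHom.ofInjective hf).symm.trans (MonoidHom.ofInjective hg))
  refine ⟨φ, fun x => ?_⟩
  have := hφ (MonoidHom.ofInjective hf x)
  rw [MulEquiv.trans_apply, MulEquiv.symm_apply_apply] at this
  exact this

theorem HG.congr (h : HG G) {H : Type*} [Group H] (e : G ≃* H) : HG H := fun A B f => by
  obtain ⟨φ, hφ⟩ := h.ext (e.symm.toMonoidHom.comp A.subtype)
    (e.symm.toMonoidHom.comp (B.subtype.comp f.toMonoidHom))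
    (e.symm.injective.comp A.subtype_injective)
    (e.symm.injective.comp (B.subtype_injective.comp f.injective))
  exact ⟨e.symm.trans (φ.trans e), fun a => (congrArg e (hφ a)).trans (e.apply_symm_apply _)⟩

/-- an injective endomorphism-like map on a subgroup extends -/
theorem HG.sub (h : HG G) (P : Subgroup G) (f : G → G)
    (hm : ∀ x ∈ P, ∀ y ∈ P, f (x * y) = f x * f y) (hi : ∀ x ∈ P, f x = 1 → x = 1) :
    ∃ φ : G ≃* G, ∀ x ∈ P, φ x = f x := by
  obtain ⟨φ, hφ⟩ := h.ext P.subtype (MonoidHom.mk' (fun x : P => f x) fun x y => hm _ x.2 _ y.2)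
    P.subtype_injective ((injective_iff_map_eq_one _).2 fun x e => Subtype.ext (hi _ x.2 e))
  exact ⟨φ, fun x hx => hφ ⟨x, hx⟩⟩

/-- additive charts -/
theorem HG.add (h : HG G) {A : Type*} [AddGroup A] {f g : A → G} (hf : Function.Injective f)
    (hg : Function.Injective g) (hf' : ∀ a b, f (a + b) = f a * f b)
    (hg' : ∀ a b, g (a + b) = g a * g b) : ∃ φ : G ≃* G, ∀ x, φ (f x) = g x :=
  h.ext (X := Multiplicative A) (MonoidHom.mk' (fun a => f a.toAdd) fun _ _ => hf' _ _)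
    (MonoidHom.mk' (fun a => g a.toAdd) fun _ _ => hg' _ _) (fun _ _ e => hf e) fun _ _ e => hg e

/-- two commuting pairs both generating `ℤ/n × ℤ/m` -/
theorem HG.pair (h : HG G) {n m : ℕ} {x y x' y' : G} (c : x * y = y * x) (c' : x' * y' = y' * x')
    (hi : ∀ i j : ℤ, x ^ i * y ^ j = 1 ↔ (n : ℤ) ∣ i ∧ (m : ℤ) ∣ j)
    (hi' : ∀ i j : ℤ, x' ^ i * y' ^ j = 1 ↔ (n : ℤ) ∣ i ∧ (m : ℤ) ∣ j) :
    ∃ φ : G ≃* G, φ x = x' ∧ φ y = y' := by
  let F : ∀ {x y : G}, x * y = y * x → (Multiplicative (ℤ × ℤ) →* G) := fun {x y} c =>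
    MonoidHom.mk' (fun a => x ^ a.toAdd.1 * y ^ a.toAdd.2) fun a b => by
      simp only [toAdd_mul, Prod.fst_add, Prod.snd_add, zpow_add, mul_assoc, mul_right_inj]
      rw [← mul_assoc, ← mul_assoc, ((show Commute x y from c).zpow_zpow _ _).eq]
  have hk : (F c).ker = (F c').ker := SetLike.ext fun a => (hi _ _).trans (hi' _ _).symm
  obtain ⟨φ, hφ⟩ := h.ext (QuotientGroup.kerLift (F c))
    (QuotientGroup.lift _ (F c') hk.le) (QuotientGroup.kerLift_injective _)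
    ((QuotientGroup.injective_lift_iff _ _ _).2 hk)
  have := fun a => hφ (QuotientGroup.mk (Multiplicative.ofAdd a))
  exact ⟨φ, by simpa [F] using this (1, 0), by simpa [F] using this (0, 1)⟩

theorem HG.of_orderOf (h : HG G) {x y : G} (e : orderOf x = orderOf y) :
    ∃ φ : G ≃* G, φ x = y := by
  obtain ⟨φ, h1, -⟩ := h.pair (n := orderOf x) (m := 1) (x := x) (y := 1) (x' := y) (y' := 1)
    (by simp) (by simp) (fun i j => by simp [orderOf_dvd_iff_zpow_eq_one])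
    (fun i j => by simp [e, orderOf_dvd_iff_zpow_eq_one])
  exact ⟨φ, h1⟩

/-- The swap trick: for commuting pairs generating `ℤ/n × ℤ/n`, conjugacy of the two members
does not depend on the pair. -/
theorem HG.isConj (h : HG G) {n : ℕ} {x y x' y' : G} (c : x * y = y * x) (c' : x' * y' = y' * x')
    (hi : ∀ i j : ℤ, x ^ i * y ^ j = 1 ↔ (n : ℤ) ∣ i ∧ (n : ℤ) ∣ j)
    (hi' : ∀ i j : ℤ, x' ^ i * y' ^ j = 1 ↔ (n : ℤ) ∣ i ∧ (n : ℤ) ∣ j) (hc : IsConj x y) :
    IsConj x' y' := by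
  obtain ⟨φ, rfl, rfl⟩ := h.pair c c' hi hi'
  exact φ.toMonoidHom.map_isConj hc

theorem indep {p : ℕ} (hp : p.Prime) {x y : G} (hx : x ^ p = 1) (hy : y ^ p = 1) (h1 : x ≠ 1)
    (h2 : y ∉ zpowers x) (i j : ℤ) : x ^ i * y ^ j = 1 ↔ (p : ℤ) ∣ i ∧ (p : ℤ) ∣ j := by
  have : Fact p.Prime := ⟨hp⟩
  have ox := orderOf_eq_prime hx h1
  have oy := orderOf_eq_prime hy fun e => h2 (e ▸ one_mem _)
  rw [← ox, orderOf_dvd_iff_zpow_eq_one, ox, ← oy, orderOf_dvd_iff_zpow_eq_one]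
  refine ⟨fun h => ?_, fun h => by rw [h.1, h.2, mul_one]⟩
  have h3 : y ^ j = 1 := by
    by_contra h3
    have h4 : IsCoprime (p : ℤ) j := (Nat.prime_iff_prime_int.1 hp).coprime_iff_not_dvd.2
      fun e => h3 (orderOf_dvd_iff_zpow_eq_one.1 (oy ▸ e))
    obtain ⟨a, b, e⟩ := h4
    refine h2 ?_
    have h5 : y = (y ^ j) ^ b := by
      conv_lhs => rw [← zpow_one y, ← e, zpow_add, mul_comm a, zpow_mul, zpow_natCast, hy,
        one_zpow, one_mul, mul_comm, zpow_mul]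
    rw [h5, eq_inv_of_mul_eq_one_right h]
    exact zpow_mem (inv_mem (zpow_mem (mem_zpowers x) i)) b
  exact ⟨by rwa [h3, mul_one] at h, h3⟩

/-- pairs generating an elementary abelian group of order `p ^ 2` -/
theorem HG.pair' (h : HG G) {p : ℕ} (hp : p.Prime) {x y x' y' : G} (c : x * y = y * x)
    (c' : x' * y' = y' * x') (hx : x ^ p = 1) (hy : y ^ p = 1) (h1 : x ≠ 1) (h2 : y ∉ zpowers x)
    (hx' : x' ^ p = 1) (hy' : y' ^ p = 1) (h1' : x' ≠ 1) (h2' : y' ∉ zpowers x') :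
    ∃ φ : G ≃* G, φ x = x' ∧ φ y = y' :=
  h.pair c c' (indep hp hx hy h1 h2) (indep hp hx' hy' h1' h2')

theorem HG.isConj' (h : HG G) {p : ℕ} (hp : p.Prime) {x y x' y' : G} (c : x * y = y * x)
    (c' : x' * y' = y' * x') (hx : x ^ p = 1) (hy : y ^ p = 1) (h1 : x ≠ 1) (h2 : y ∉ zpowers x)
    (hx' : x' ^ p = 1) (hy' : y' ^ p = 1) (h1' : x' ≠ 1) (h2' : y' ∉ zpowers x')
    (hc : IsConj x y) : IsConj x' y' :=
  h.isConj c c' (indep hp hx hy h1 h2) (indep hp hx' hy' h1' h2') hc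

end Cfsg.Agent.Hmg
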