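import Mathlib
import Cfsg.Agent.Hmg.Def
import Cfsg.Agent.PLocal.SylowIn
import Cfsg.Agent.Pyr.Lin

/-! Charts of elementary abelian `2`-subgroups, `2`-elements, a Frattini argument. -/

set_option autoImplicit false

namespace Cfsg.Agent.Hmg

open Subgroup Module Cfsg.Agent.PLocal

variable {G : Type*} [Group G] {A : Type*} [AddCommGroup A]

/-- `ι` is an injective homomorphism from the additive group `A` -/
structure Ch (ι : A → G) : Prop where
  inj : Function.Injective ι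
  add : ∀ a b, ι (a + b) = ι a * ι b

/-- `2`-elements -/
def Two (x : G) : Prop := ∃ k, x ^ 2 ^ k = 1

theorem add_self_two [Module (ZMod 2) A] (a : A) : a + a = 0 := by
  rw [← two_smul (ZMod 2), show (2 : ZMod 2) = 0 from rfl, zero_smul]

namespace Ch
variable {ι : A → G} (h : Ch ι)
include h

theorem zero : ι 0 = 1 := by simpa using h.add 0 0

theorem eq_one_iff {a : A} : ι a = 1 ↔ a = 0 := by rw [← h.zero, h.inj.eq_iff]

theorem comm (a b : A) : ι a * ι b = ι b * ι a := by rw [← h.add, add_comm, h.add]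

theorem neg (a : A) : ι (-a) = (ι a)⁻¹ :=
  eq_inv_of_mul_eq_one_left (by rw [← h.add, neg_add_cancel, h.zero])

/-- the image of a chart -/
def rng : Subgroup G where
  carrier := Set.range ι
  one_mem' := ⟨0, h.zero⟩
  mul_mem' := by rintro _ _ ⟨a, rfl⟩ ⟨b, rfl⟩; exact ⟨_, h.add a b⟩
  inv_mem' := by rintro _ ⟨a, rfl⟩; exact ⟨_, h.neg a⟩

theorem mem_rng {x : G} : x ∈ h.rng ↔ ∃ a, ι a = x := Iff.rfl

theorem card_rng : Nat.card h.rng = Nat.card A :=
  (Nat.card_congr (Equiv.ofInjective ι h.inj)).symm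

theorem map {H : Type*} [Group H] (φ : G ≃* H) : Ch fun a => φ (ι a) :=
  ⟨φ.injective.comp h.inj, fun a b => by rw [h.add, map_mul]⟩

theorem comp {B : Type*} [AddCommGroup B] (f : B →+ A) (hf : Function.Injective f) :
    Ch fun b => ι (f b) :=
  ⟨h.inj.comp hf, fun a b => by rw [map_add, h.add]⟩

variable [Module (ZMod 2) A]

theorem sq (a : A) : ι a * ι a = 1 := by rw [← h.add, add_self_two, h.zero]

theorem inv (a : A) : (ι a)⁻¹ = ι a := inv_eq_of_mul_eq_one_right (h.sq a)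

theorem isPGroup : IsPGroup 2 h.rng := by
  rintro ⟨_, a, rfl⟩
  exact ⟨1, Subtype.ext (by simpa [_root_.sq] using h.sq a)⟩

/-- every linear automorphism is induced by an automorphism of `G` -/
theorem exists_aut (hG : HG G) (τ : A ≃ₗ[ZMod 2] A) : ∃ φ : G ≃* G, ∀ a, φ (ι a) = ι (τ a) :=
  hG.add h.inj (h.inj.comp τ.injective) h.add fun a b => by simp only [map_add, h.add]

end Ch

theorem exists_ch (V : Subgroup G) [Finite V] (hV : ∀ x ∈ V, x * x = 1) :
    ∃ (n : ℕ) (ι : (Fin n → ZMod 2) → G), Ch ι ∧ ∀ x, x ∈ V ↔ ∃ a, ι a = x := by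
  obtain ⟨A, _, _, ι, -, hi, ha, hm, -⟩ := Pyr.exists_lin (1 : Unit →* G) (V := V)
    (fun _ x hx => by simpa using hx) 2
    (fun x hx y hy => by
      rw [← inv_eq_of_mul_eq_one_right (hV _ (mul_mem hx hy)), mul_inv_rev,
        inv_eq_of_mul_eq_one_right (hV _ hx), inv_eq_of_mul_eq_one_right (hV _ hy)])
    fun x hx => by rw [sq, hV x hx]
  have : Finite A := Finite.of_injective (fun a => (⟨ι a, (hm _).2 ⟨a, rfl⟩⟩ : V))
    fun _ _ e => hi (congrArg Subtype.val e)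
  let e := (Module.finBasis (ZMod 2) A).equivFun
  exact ⟨_, fun a => ι (e.symm a),
    Ch.comp ⟨hi, ha⟩ e.symm.toAddEquiv.toAddMonoidHom e.symm.injective,
    fun x => (hm x).trans ⟨fun ⟨a, h⟩ => ⟨e a, by simpa using h⟩, fun ⟨a, h⟩ => ⟨_, h⟩⟩⟩

namespace Two

theorem of_sq {x : G} (h : x * x = 1) : Two x := ⟨1, by simpa [sq] using h⟩

theorem of_mem {T : Subgroup G} (hT : IsPGroup 2 T) {x : G} (hx : x ∈ T) : Two x :=
  let ⟨k, hk⟩ := hT ⟨x, hx⟩; ⟨k, congrArg Subtype.val hk⟩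

theorem map {H : Type*} [Group H] {F : Type*} [FunLike F G H] [MonoidHomClass F G H] (φ : F)
    {x : G} (h : Two x) : Two (φ x) :=
  let ⟨k, hk⟩ := h; ⟨k, by rw [← map_pow, hk, map_one]⟩

theorem conj {x : G} (h : Two x) (g : G) : Two (g * x * g⁻¹) := h.map (MulAut.conj g)

theorem pow {x : G} (h : Two x) (n : ℕ) : Two (x ^ n) :=
  let ⟨k, hk⟩ := h; ⟨k, by rw [← pow_mul, mul_comm, pow_mul, hk, one_pow]⟩

theorem mul_self {x : G} (h : Two x) : Two (x * x) := sq x ▸ h.pow 2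

theorem inv {x : G} (h : Two x) : Two x⁻¹ := let ⟨k, hk⟩ := h; ⟨k, by rw [inv_pow, hk, inv_one]⟩

theorem isPGroup {x : G} (h : Two x) : IsPGroup 2 (zpowers x) := by
  obtain ⟨k, hk⟩ := h
  rintro ⟨_, n, rfl⟩
  exact ⟨k, Subtype.ext (by
    change (x ^ n) ^ 2 ^ k = 1
    rw [← zpow_natCast, ← zpow_mul, mul_comm, zpow_mul, zpow_natCast, hk, one_zpow])⟩

/-- a `2`-element of `K` normalising a Sylow `2`-subgroup of `K` lies in it -/
theorem mem_of_normalizer {x : G} (h : Two x) {R K : Subgroup G} (hR : IsSylowIn 2 R K)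
    (hK : x ∈ K) (hn : x ∈ normalizer (R : Set G)) : x ∈ R :=
  hR.2.2 (R ⊔ zpowers x) (IsPGroup.to_sup_of_normal_left' hR.isPGroup h.isPGroup (zpowers_le.2 hn))
    le_sup_left (sup_le hR.le (zpowers_le.2 hK)) (mem_sup_right (mem_zpowers x))

/-- a `2`-element of `K` is conjugate into a Sylow `2`-subgroup of `K` -/
theorem exists_conj_mem [Finite G] {x : G} (h : Two x) {R K : Subgroup G} (hR : IsSylowIn 2 R K)
    (hK : x ∈ K) : ∃ g ∈ K, g * x * g⁻¹ ∈ R :=
  have : Fact (Nat.Prime 2) := ⟨Nat.prime_two⟩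
  let ⟨g, hg, e⟩ := hR.exists_conj_le h.isPGroup (zpowers_le.2 hK)
  ⟨g, hg, e (conj_mem_map_conj g (mem_zpowers x))⟩

end Two

theorem exists_two_pow [Finite G] (g : G) : ∃ m, Two (g ^ (2 * m + 1)) := by
  obtain ⟨k, m, ⟨r, hr⟩, e⟩ := Nat.exists_eq_two_pow_mul_odd (orderOf_pos g).ne'
  exact ⟨r, k, by rw [← hr, ← pow_mul, mul_comm, ← e, pow_orderOf_eq_one]⟩

/-- the Frattini argument for an automorphism -/
theorem frattini_aut [Finite G] {p : ℕ} [Fact p.Prime] {R K : Subgroup G} (hR : IsSylowIn p R K)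
    (φ : G ≃* G) (hK : ∀ x, φ x ∈ K ↔ x ∈ K) : ∃ c ∈ K, ∀ x, c * φ x * c⁻¹ ∈ R ↔ x ∈ R := by
  have h1 := hR.map_equiv φ
  rw [show K.map φ.toMonoidHom = K from Subgroup.ext fun x => ⟨by
    rintro ⟨y, hy, rfl⟩; exact (hK y).2 hy, fun hx =>
      ⟨φ.symm x, (hK _).1 (by simpa using hx), by simp⟩⟩] at h1
  obtain ⟨c, hc, e⟩ := h1.exists_conj_eq hR
  refine ⟨c, hc, fun x => ?_⟩
  conv_lhs => rw [← e, mem_map_conj_iff]
  simp [mul_assoc]

variable [Module (ZMod 2) A]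

/-- all transvections are induced by `2`-elements -/
def TV (ι : A → G) : Prop := ∀ (l : Dual (ZMod 2) A) (c : A), l c = 0 →
  ∃ x : G, Two x ∧ ∀ a, x * ι a * x⁻¹ = ι (a + l a • c)

/-- the image contains every involution of its centraliser -/
def MX (ι : A → G) : Prop := ∀ t : G, t * t = 1 → (∀ a, ι a * t = t * ι a) → ∃ a, ι a = t

/-- the image is a Sylow `2`-subgroup of its centraliser -/
def CX (ι : A → G) : Prop := ∀ t : G, Two t → (∀ a, ι a * t = t * ι a) → ∃ a, ι a = t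

/-- squares of `2`-elements inducing transvections -/
def KL (ι : A → G) : Prop := ∀ (l : Dual (ZMod 2) A) (c : A) (x : G), l c = 0 → Two x →
  (∀ a, x * ι a * x⁻¹ = ι (a + l a • c)) → x * x = 1 ∨ x * x = ι c

end Cfsg.Agent.Hmg
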