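import Mathlib
import Cfsg.Agent.Hmg.Ch

/-! Homocyclic subgroups of exponent `4` in homogeneous groups. -/

set_option autoImplicit false
set_option linter.unusedSectionVars false

namespace Cfsg.Agent.Hmg

open Subgroup Module

variable {G : Type*} [Group G] {W : Type*} [AddCommGroup W] [Module (ZMod 2) W]

/-- `P` is homocyclic of exponent `4`, `κ` is a chart of `Ω₁(P) = Ω₁(C(P))`, `s` is squaring -/
structure FD (κ : W → G) (P : Subgroup G) (s : G → W) : Prop where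
  ch : Ch κ
  comm : ∀ x ∈ P, ∀ y ∈ P, x * y = y * x
  mem : ∀ w, κ w ∈ P
  hs : ∀ p ∈ P, κ (s p) = p * p
  surj : ∀ w, ∃ p ∈ P, s p = w
  omega : ∀ t, t * t = 1 → (∀ p ∈ P, p * t = t * p) → ∃ w, κ w = t

/-- `g` induces `p ↦ p * X (p ^ 2)` on `P` -/
def Ind (κ : W → G) (P : Subgroup G) (s : G → W) (g : G) (X : W →ₗ[ZMod 2] W) : Prop :=
  ∀ p ∈ P, g * p * g⁻¹ = p * κ (X (s p))

namespace FD
variable {κ : W → G} {P : Subgroup G} {s : G → W} (D : FD κ P s)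
include D

theorem s_mul {p q : G} (hp : p ∈ P) (hq : q ∈ P) : s (p * q) = s p + s q := D.ch.inj (by
  rw [D.ch.add, D.hs _ (mul_mem hp hq), D.hs _ hp, D.hs _ hq, mul_assoc, mul_assoc,
    ← mul_assoc q, D.comm q hq p hp, mul_assoc])

theorem s_κ (w : W) : s (κ w) = 0 := D.ch.eq_one_iff.1 (by rw [D.hs _ (D.mem w), D.ch.sq])

theorem s_mul_κ {p : G} (hp : p ∈ P) (w : W) : s (p * κ w) = s p := by
  rw [D.s_mul hp (D.mem w), D.s_κ, add_zero]

theorem s_eq_zero {p : G} (hp : p ∈ P) (h : s p = 0) : ∃ w, κ w = p :=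
  D.omega p (by rw [← D.hs p hp, h, D.ch.zero]) fun q hq => D.comm q hq p hp

theorem fix {g : G} {X : W →ₗ[ZMod 2] W} (h : Ind κ P s g X) (w : W) : g * κ w * g⁻¹ = κ w := by
  rw [h _ (D.mem w), D.s_κ, map_zero, D.ch.zero, mul_one]

theorem ind_mul {g g' : G} {X Y : W →ₗ[ZMod 2] W} (h : Ind κ P s g X) (h' : Ind κ P s g' Y) :
    Ind κ P s (g * g') (X + Y) := fun p hp => by
  calc g * g' * p * (g * g')⁻¹ = g * (g' * p * g'⁻¹) * g⁻¹ := by group
    _ = (g * p * g⁻¹) * (g * κ (Y (s p)) * g⁻¹) := by rw [h' p hp]; group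
    _ = _ := by rw [h p hp, D.fix h, LinearMap.add_apply, D.ch.add, mul_assoc]

theorem ind_zero_iff {g : G} : Ind κ P s g 0 ↔ ∀ p ∈ P, p * g = g * p :=
  forall₂_congr fun p _ => by
    rw [LinearMap.zero_apply, D.ch.zero, mul_one, mul_inv_eq_iff_eq_mul, eq_comm]

theorem ind_of_mem {p : G} (hp : p ∈ P) : Ind κ P s p 0 :=
  D.ind_zero_iff.2 fun q hq => D.comm q hq p hp

theorem ind_inv {g : G} {X : W →ₗ[ZMod 2] W} (h : Ind κ P s g X) : Ind κ P s g⁻¹ X := fun p hp => by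
  have := h _ (mul_mem hp (D.mem (X (s p))))
  rw [D.s_mul_κ hp, mul_assoc p, D.ch.sq, mul_one] at this
  conv_lhs => rw [← this]
  group

theorem ind_sq {g : G} {X : W →ₗ[ZMod 2] W} (h : Ind κ P s g X) : Ind κ P s (g * g) 0 := by
  have := D.ind_mul h h
  rwa [add_self_two] at this

theorem ind_pow {g : G} {X : W →ₗ[ZMod 2] W} (h : Ind κ P s g X) (m : ℕ) :
    Ind κ P s (g ^ (2 * m + 1)) X := by
  induction m with
  | zero => simpa using h
  | succ m ih =>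
    have := D.ind_mul ih (D.ind_sq h)
    rwa [add_zero, ← sq, ← pow_add] at this

theorem ind_unique {g : G} {X Y : W →ₗ[ZMod 2] W} (h : Ind κ P s g X) (h' : Ind κ P s g Y) :
    X = Y := LinearMap.ext fun w => by
  obtain ⟨p, hp, rfl⟩ := D.surj w
  exact D.ch.inj (mul_left_cancel ((h p hp).symm.trans (h' p hp)))

/-- the endomorphisms induced by elements of `G` -/
def L : AddSubgroup (W →ₗ[ZMod 2] W) where
  carrier := {X | ∃ g, Ind κ P s g X}
  zero_mem' := ⟨1, D.ind_of_mem P.one_mem⟩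
  add_mem' := fun ⟨_, h⟩ ⟨_, h'⟩ => ⟨_, D.ind_mul h h'⟩
  neg_mem' := fun {X} h => by rwa [neg_eq_of_add_eq_zero_left (add_self_two X)]

theorem exists_aut (hG : HG G) (Y : W →ₗ[ZMod 2] W) :
    ∃ φ : G ≃* G, ∀ p ∈ P, φ p = p * κ (Y (s p)) :=
  hG.sub P (fun p => p * κ (Y (s p))) (fun p hp q hq => by
    rw [D.s_mul hp hq, map_add, D.ch.add, mul_assoc, mul_assoc, ← mul_assoc q,
      D.comm q hq _ (D.mem _), mul_assoc]) fun p hp e => by
    have h := D.s_mul_κ hp (Y (s p))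
    rw [e, ← D.ch.zero, D.s_κ] at h
    rwa [← h, map_zero, D.ch.zero, mul_one] at e

theorem s_map {φ : G ≃* G} {τ : W → W} (hP : ∀ x ∈ P, φ x ∈ P) (hτ : ∀ w, φ (κ w) = κ (τ w))
    {p : G} (hp : p ∈ P) : s (φ p) = τ (s p) :=
  D.ch.inj (by rw [D.hs _ (hP p hp), ← hτ, D.hs p hp, map_mul])

theorem ind_map {φ : G ≃* G} {τ : W → W} (hP : ∀ x, φ x ∈ P ↔ x ∈ P) (hτ : ∀ w, φ (κ w) = κ (τ w))
    {g : G} {X Y : W →ₗ[ZMod 2] W} (h : Ind κ P s g X) (hY : ∀ w, Y (τ w) = τ (X w)) :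
    Ind κ P s (φ g) Y := fun p hp => by
  obtain ⟨q, rfl⟩ := φ.surjective p
  rw [D.s_map (fun x => (hP x).2) hτ ((hP q).1 hp), hY, ← hτ, ← map_mul, ← map_inv, ← map_mul,
    h q ((hP q).1 hp), map_mul]

theorem smulRight_mem (hG : HG G) {f : Dual (ZMod 2) W} {e : W} (hf : f e = 0) {g : G}
    (hg : g ∈ normalizer (P : Set G)) (h : ∀ w, g * κ w * g⁻¹ = κ (w + f w • e)) :
    f.smulRight e ∈ D.L := by
  by_cases he : e = 0
  · rw [he, LinearMap.smulRight_zero]; exact zero_mem _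
  obtain ⟨l, -, hl⟩ := Pyr.exists_fn' he he
  obtain ⟨φ, hφ⟩ := D.exists_aut hG (l.smulRight e)
  refine ⟨g * (φ g)⁻¹, fun p hp => ?_⟩
  have h1 := mul_mem hp (D.mem (l (s p) • e))
  have h2 : g⁻¹ * (p * κ (l (s p) • e)) * g ∈ P := by
    simpa using (mem_normalizer_iff.1 (inv_mem hg) _).1 h1
  have h3 := hφ _ h1
  rw [D.s_mul_κ hp, LinearMap.smulRight_apply, mul_assoc, D.ch.sq, mul_one] at h3
  have h4 := hφ _ h2
  rw [map_mul, map_mul, h3, map_inv] at h4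
  have h5 := D.s_map (φ := MulAut.conj g) (fun x hx => (mem_normalizer_iff.1 hg x).1 hx) h h2
  rw [MulAut.conj_apply, show ∀ x, g * (g⁻¹ * x * g) * g⁻¹ = x from fun x => by group,
    D.s_mul_κ hp] at h5
  generalize s (g⁻¹ * (p * κ (l (s p) • e)) * g) = w at h4 h5
  calc _ = g * ((φ g)⁻¹ * p * φ g) * g⁻¹ := by group
    _ = p * κ (l (s p) • e) * (g * κ (l w • e) * g⁻¹) := by
      rw [h4, LinearMap.smulRight_apply]; group
    _ = _ := by
      rw [h, mul_assoc, ← D.ch.add, h5]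
      simp only [map_add, map_smul, hf, hl, smul_eq_mul, mul_zero, mul_one, zero_smul, add_zero,
        LinearMap.smulRight_apply, add_smul, smul_zero]
      rw [add_right_comm, add_self_two, zero_add]

theorem exists_ind {g : G} (hg : ∀ p ∈ P, g * p * g⁻¹ ∈ P) (h : ∀ w, κ w * g = g * κ w) :
    ∃ X, Ind κ P s g X := by
  have h0 : ∀ p ∈ P, s (g * p * g⁻¹) = s p := fun p hp => D.ch.inj (by
    rw [D.hs _ (hg p hp), conj_mul, ← D.hs p hp, ← h, mul_inv_cancel_right])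
  have h1 : ∀ p ∈ P, ∃ w, κ w = p⁻¹ * (g * p * g⁻¹) := fun p hp =>
    D.s_eq_zero (mul_mem (inv_mem hp) (hg p hp)) (by
      have := D.s_mul hp (mul_mem (inv_mem hp) (hg p hp))
      rwa [mul_inv_cancel_left, h0 p hp, left_eq_add] at this)
  choose! d hd using h1
  have h2 : ∀ p ∈ P, ∀ q ∈ P, d (p * q) = d p + d q := fun p hp q hq => D.ch.inj (by
    rw [D.ch.add, hd _ (mul_mem hp hq), hd q hq, ← mul_assoc (κ _), ← D.comm _ (inv_mem hq) _ (D.mem _),
      hd p hp]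
    group)
  have h3 : ∀ p ∈ P, ∀ q ∈ P, s p = s q → d p = d q := fun p hp q hq e => by
    obtain ⟨w, hw⟩ := D.s_eq_zero (mul_mem (inv_mem hp) hq) (by
      have := D.s_mul hp (mul_mem (inv_mem hp) hq)
      rwa [mul_inv_cancel_left, e, left_eq_add] at this)
    have h4 : d (κ w) = 0 := D.ch.eq_one_iff.1 (by rw [hd _ (D.mem w), ← h]; group)
    rw [← add_zero (d p), ← h4, ← h2 p hp _ (D.mem w), hw, mul_inv_cancel_left]
  choose r hr hr' using D.surj
  refine ⟨(AddMonoidHom.mk' (fun w => d (r w)) fun v w => ?_).toZModLinearMap 2, fun p hp => ?_⟩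
  · rw [← h2 _ (hr v) _ (hr w)]
    exact h3 _ (hr _) _ (mul_mem (hr v) (hr w)) (by rw [D.s_mul (hr v) (hr w), hr', hr', hr'])
  · change _ = p * κ (d (r (s p)))
    rw [h3 _ (hr _) p hp (hr' _), hd p hp, mul_inv_cancel_left]

theorem mem_of_sq {y : G} (hy : ∀ p ∈ P, p * y = y * p) {w : W} (h : κ w = y * y) : y ∈ P := by
  obtain ⟨p, hp, rfl⟩ := D.surj w
  obtain ⟨v, hv⟩ := D.omega (y * p⁻¹) (by
    rw [mul_assoc, ← mul_assoc _ y, hy _ (inv_mem hp), mul_assoc, ← mul_assoc, ← h, D.hs p hp]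
    group) fun q hq => by rw [← mul_assoc, hy q hq, mul_assoc, D.comm q hq _ (inv_mem hp), mul_assoc]
  rw [← inv_mul_cancel_right y p, ← hv]
  exact mul_mem (D.mem v) hp

theorem two_mem {r : G} {X : W →ₗ[ZMod 2] W} (h : Ind κ P s r X) (hX : ∀ w, X w = 0 → w = 0)
    {y : G} (h2 : Two y) (hy : ∀ p ∈ P, p * y = y * p) (hr : r * y = y * r) : ∃ w, κ w = y := by
  obtain ⟨k, hk⟩ := h2
  induction k generalizing y with
  | zero => exact ⟨0, by rw [D.ch.zero, ← hk, pow_zero, pow_one]⟩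
  | succ k ih =>
    obtain ⟨w, hw⟩ := ih (y := y * y) (fun p hp => by rw [← mul_assoc, hy p hp, mul_assoc, hy p hp,
      mul_assoc]) (by rw [← mul_assoc, hr, mul_assoc, hr, mul_assoc])
      (by rw [← sq, ← pow_mul, ← pow_succ', hk])
    have hP := D.mem_of_sq hy hw
    have := h y hP
    rw [hr, mul_inv_cancel_right, left_eq_mul, D.ch.eq_one_iff] at this
    exact D.s_eq_zero hP (hX _ this)

theorem sq_mem {r : G} {X : W →ₗ[ZMod 2] W} (h : Ind κ P s r X) (hX : ∀ w, X w = 0 → w = 0)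
    (h2 : Two r) : ∃ w, κ w = r * r :=
  D.two_mem h hX h2.mul_self (D.ind_zero_iff.1 (D.ind_sq h)) (mul_assoc _ _ _).symm

theorem mul_sq {r : G} {X : W →ₗ[ZMod 2] W} (h : Ind κ P s r X) {p : G} (hp : p ∈ P) :
    p * r * (p * r) = κ (s p + X (s p)) * (r * r) := by
  rw [D.ch.add, D.hs p hp, mul_assoc p p, ← h p hp]; group

theorem exists_inv [Finite G] {X : W →ₗ[ZMod 2] W} (h : X ∈ D.L) (hX : ∀ w, X w = 0 → w = 0)
    (hX' : ∀ w, X w = w → w = 0) : ∃ b, b * b = 1 ∧ Ind κ P s b X := by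
  obtain ⟨g, hg⟩ := h
  obtain ⟨m, hm⟩ := exists_two_pow g
  have h1 := D.ind_pow hg m
  obtain ⟨w, hw⟩ := D.sq_mem h1 hX hm
  have : Finite W := Finite.of_injective _ D.ch.inj
  obtain ⟨v, hv⟩ := Finite.surjective_of_injective ((injective_iff_map_eq_zero
    (LinearMap.id + X : W →ₗ[ZMod 2] W)).2 fun v hv => hX' v (by
      rw [← neg_eq_of_add_eq_zero_right hv]
      exact neg_eq_of_add_eq_zero_left (add_self_two v))) w
  obtain ⟨p, hp, rfl⟩ := D.surj v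
  refine ⟨p * _, ?_, by simpa using D.ind_mul (D.ind_of_mem hp) h1⟩
  rw [D.mul_sq h1 hp, ← hw, ← hv]
  exact D.ch.sq _

end FD

end Cfsg.Agent.Hmg
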