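import Mathlib
import Cfsg.Agent.Pyr.Lin

/-! Linear algebra over `ZMod 2` in dimension at least `3`. -/

set_option autoImplicit false
set_option linter.unusedSectionVars false

namespace Cfsg.Agent.Hmg

open Module

variable {W : Type*} [AddCommGroup W] [Module (ZMod 2) W] [Finite W]

namespace Lin

theorem as (a : W) : a + a = 0 := by
  rw [← two_smul (ZMod 2), show (2 : ZMod 2) = 0 from rfl, zero_smul]

theorem as' (a b : W) : a + (a + b) = b := by rw [← add_assoc, as, zero_add]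

theorem ex_tv (f : Dual (ZMod 2) W) (u : W) (h : f u = 0) :
    ∃ τ : W ≃ₗ[ZMod 2] W, (∀ x, τ x = x + f x • u) ∧ ∀ x, τ.symm x = τ x := by
  have k : Function.Involutive (LinearMap.id + f.smulRight u : W →ₗ[ZMod 2] W) := fun x => by
    simp [h, add_assoc, as]
  exact ⟨LinearEquiv.ofInvolutive _ k, fun x => rfl, fun x => rfl⟩

theorem ex1 {f : Dual (ZMod 2) W} (hf : f ≠ 0) : ∃ a, f a = 1 := by
  by_contra h
  exact hf (LinearMap.ext fun a => (Pyr.zmod_two _).resolve_right fun e => h ⟨a, e⟩)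

theorem ex_one {f g : Dual (ZMod 2) W} (hf : f ≠ 0) (hg : g ≠ 0) : ∃ e, f e = 1 ∧ g e = 1 := by
  obtain ⟨a, ha⟩ := ex1 hf
  obtain ⟨b, hb⟩ := ex1 hg
  rcases Pyr.zmod_two (g a) with e | e
  · rcases Pyr.zmod_two (f b) with e' | e'
    · exact ⟨a + b, by simp [ha, e'], by simp [hb, e]⟩
    · exact ⟨b, e', hb⟩
  · exact ⟨a, ha, e⟩

theorem step1 {f : Dual (ZMod 2) W} {u e : W} (hu : u ≠ 0) (he : e ≠ 0) (a : f u = 0) (b : f e = 0) :
    ∃ τ : W ≃ₗ[ZMod 2] W, τ u = e ∧ ∀ x, f (τ x) = f x := by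
  obtain ⟨g, g0, g1⟩ := Pyr.exists_fn' (a := u + e) hu (by simpa using he)
  obtain ⟨τ, h, -⟩ := ex_tv g _ g0
  exact ⟨τ, by rw [h, g1, one_smul, as'], fun x => by simp [h, a, b]⟩

theorem step2 {f g : Dual (ZMod 2) W} {u : W} (hf : f ≠ 0) (hg : g ≠ 0) (a : f u = 0) (b : g u = 0) :
    ∃ τ : W ≃ₗ[ZMod 2] W, τ u = u ∧ ∀ x, g (τ x) = f x := by
  obtain ⟨e, e1, e2⟩ := ex_one hf hg
  obtain ⟨τ, h, -⟩ := ex_tv (g + f) e (by simp [e1, e2, CharTwo.add_self_eq_zero])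
  exact ⟨τ, by simp [h, a, b], fun x => by
    simp [h, e2, ← add_assoc, CharTwo.add_self_eq_zero]⟩

end Lin

open Lin

theorem exists_ker₂ (h3 : 3 ≤ finrank (ZMod 2) W) (f g : Dual (ZMod 2) W) :
    ∃ e : W, e ≠ 0 ∧ f e = 0 ∧ g e = 0 := by
  by_contra h
  have := LinearMap.finrank_le_finrank_of_injective (f := f.prod g)
    ((injective_iff_map_eq_zero _).2 fun e he => by
      by_contra a
      exact h ⟨e, a, congrArg Prod.fst he, congrArg Prod.snd he⟩)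
  simp at this
  omega

theorem exists_dual₂ (h3 : 3 ≤ finrank (ZMod 2) W) (u w : W) :
    ∃ f : Dual (ZMod 2) W, f ≠ 0 ∧ f u = 0 ∧ f w = 0 := by
  have : Finite (Dual (ZMod 2) W) := Finite.of_injective _ DFunLike.coe_injective
  obtain ⟨e, e0, e1, e2⟩ := exists_ker₂ (W := Dual (ZMod 2) W)
    (by rwa [Subspace.dual_finrank_eq]) (Dual.eval _ _ u) (Dual.eval _ _ w)
  exact ⟨e, e0, e1, e2⟩

theorem exists_equiv_pair (h3 : 3 ≤ finrank (ZMod 2) W) {f g : Dual (ZMod 2) W} {u v : W}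
    (hf : f ≠ 0) (hg : g ≠ 0) (hu : u ≠ 0) (hv : v ≠ 0) (hfu : f u = 0) (hgv : g v = 0) :
    ∃ τ : W ≃ₗ[ZMod 2] W, τ u = v ∧ ∀ x, g (τ x) = f x := by
  obtain ⟨e, e0, e1, e2⟩ := exists_ker₂ h3 f g
  obtain ⟨a, a1, a2⟩ := step1 hu e0 hfu e1
  obtain ⟨b, b1, b2⟩ := step2 hf hg e1 e2
  obtain ⟨c, c1, c2⟩ := step1 e0 hv e2 hgv
  exact ⟨a.trans (b.trans c), by simp [a1, b1, c1], fun x => by simp [a2, b2, c2]⟩

theorem transv_mem (h3 : 3 ≤ finrank (ZMod 2) W) (H : Subgroup (W ≃ₗ[ZMod 2] W)) (hn : H.Normal)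
    (hH : H ≠ ⊥) (l : Dual (ZMod 2) W) (c : W) (hl : l c = 0) :
    ∃ τ ∈ H, ∀ x, τ x = x + l x • c := by
  by_cases l0 : l = 0
  · exact ⟨1, one_mem _, by simp [l0]⟩
  by_cases c0 : c = 0
  · exact ⟨1, one_mem _, by simp [c0]⟩
  obtain ⟨⟨σ, hσ⟩, σ1⟩ := Subgroup.ne_bot_iff_exists_ne_one.1 hH
  obtain ⟨v, hv⟩ : ∃ v, σ v ≠ v := by
    by_contra a
    push Not at a
    exact σ1 (Subtype.ext (LinearEquiv.ext a))
  have v0 : v ≠ 0 := by rintro rfl; exact hv (map_zero σ)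
  obtain ⟨u, hu⟩ : ∃ u, σ v = u := ⟨_, rfl⟩
  have u0 : u ≠ 0 := fun e => v0 (by simpa [e] using hu)
  obtain ⟨f, f0, fu, fv⟩ := exists_dual₂ h3 u v
  obtain ⟨τ, t1, t2⟩ := ex_tv f v fv
  obtain ⟨g, gu, gv⟩ := Pyr.exists_fn' (a := u) v0 (hu ▸ hv.symm)
  obtain ⟨μ, m1, -⟩ := ex_tv g u gu
  have su : σ.symm u = v := by rw [← hu, LinearEquiv.symm_apply_apply]
  obtain ⟨h, hh, h1⟩ : ∃ h ∈ H, ∀ x, h x = x + f x • v + f (σ.symm (x + f x • v)) • u :=
    ⟨σ * (τ * σ⁻¹ * τ⁻¹), mul_mem hσ (hn.conj_mem _ (inv_mem hσ) τ), fun x => by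
      change σ (τ (σ.symm (τ.symm x))) = _
      rw [t2, t1 x, t1, map_add σ, map_smul, hu, LinearEquiv.apply_symm_apply]⟩
  obtain ⟨k, hk, k1⟩ : ∃ k ∈ H, ∀ x, k x = x + f x • u :=
    ⟨μ * h * μ⁻¹ * h⁻¹, mul_mem (hn.conj_mem _ hh μ) (inv_mem hh), fun y => by
      obtain ⟨x, rfl⟩ := (h * μ).surjective y
      change μ (h (μ.symm (h.symm (h (μ x))))) = h (μ x) + f (h (μ x)) • u
      rw [LinearEquiv.symm_apply_apply, LinearEquiv.symm_apply_apply]
      simp only [h1, m1, map_add, map_smul, fu, fv, gu, gv, su, smul_eq_mul, mul_zero, add_zero,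
        mul_one, add_smul]
      abel⟩
  obtain ⟨ρ, r1, r2⟩ := exists_equiv_pair h3 f0 l0 u0 c0 fu hl
  refine ⟨ρ * k * ρ⁻¹, hn.conj_mem _ hk ρ, fun y => ?_⟩
  obtain ⟨x, rfl⟩ := ρ.surjective y
  change ρ (k (ρ.symm (ρ x))) = _
  rw [LinearEquiv.symm_apply_apply, k1, map_add, map_smul, r1, r2]

theorem exists_inj (h3 : 3 ≤ finrank (ZMod 2) W) (L : AddSubgroup (W →ₗ[ZMod 2] W))
    (hL : ∀ (f : Dual (ZMod 2) W) (u : W), f u = 0 → f.smulRight u ∈ L) :
    ∃ X ∈ L, (∀ w, X w = 0 → w = 0) ∧ ∀ w, X w = w → w = 0 := by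
  obtain ⟨n, hn⟩ := Nat.exists_eq_add_of_le' h3
  let b := Module.finBasisOfFinrankEq (ZMod 2) W hn
  have l1 : Fin.last (n + 2) ≠ 1 := by simp [Fin.ext_iff]
  refine ⟨∑ i, (b.coord i).smulRight (b (i + 1)) + (b.coord (Fin.last _)).smulRight (b 1),
    add_mem (sum_mem fun i _ => hL _ _ (by simp)) (hL _ _ (by simp [l1])), ?_⟩
  have key : ∀ w j, b.repr ((∑ i, (b.coord i).smulRight (b (i + 1)) +
      (b.coord (Fin.last _)).smulRight (b 1) : W →ₗ[ZMod 2] W) w) (j + 1) =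
      b.repr w j + if j = 0 then b.repr w (Fin.last _) else 0 := fun w j => by
    simp [Finsupp.single_apply, eq_comm (a := (0 : Fin (n + 3)))]
  generalize (∑ i, (b.coord i).smulRight (b (i + 1)) +
    (b.coord (Fin.last _)).smulRight (b 1) : W →ₗ[ZMod 2] W) = X at key
  have l0 : Fin.last (n + 2) ≠ 0 := by simp
  refine ⟨fun w e => b.repr.map_eq_zero_iff.1 (Finsupp.ext fun j => ?_),
    fun w e => b.repr.map_eq_zero_iff.1 (Finsupp.ext fun j => ?_)⟩
  · have a := key w j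
    have c := key w (Fin.last _)
    rw [e, if_neg l0] at c
    simp only [map_zero, Finsupp.zero_apply, add_zero] at c
    simpa [e, ← c] using a.symm
  · have a := key w
    simp only [e] at a
    have c := a (Fin.last _)
    rw [if_neg l0, Fin.last_add_one, add_zero] at c
    have d : ∀ i : ℕ, ∀ hi : i + 1 < n + 3, b.repr w ⟨i + 1, hi⟩ = 0 := fun i => by
      induction i with
      | zero =>
        intro hi
        have := a 0
        rw [if_pos rfl, c, CharTwo.add_self_eq_zero, zero_add] at this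
        exact this
      | succ i ih =>
        intro hi
        have := a ⟨i + 1, by omega⟩
        rw [if_neg (by simp), ih, add_zero] at this
        convert this using 2
        exact Fin.ext (by rw [Fin.val_add_one_of_lt (by simp [Fin.lt_def]; omega)])
    rcases j with ⟨_ | j, hj⟩
    · exact c.trans (d (n + 1) (by omega))
    · exact d j hj

theorem smulRight_mem (h3 : 3 ≤ finrank (ZMod 2) W) (L : AddSubgroup (W →ₗ[ZMod 2] W))
    (hL : ∀ (τ : W ≃ₗ[ZMod 2] W), ∀ X ∈ L, ∃ Y ∈ L, ∀ x, Y (τ x) = τ (X x))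
    {X : W →ₗ[ZMod 2] W} (hX : X ∈ L) (h0 : X ≠ 0) (h1 : X ≠ LinearMap.id)
    (f : Dual (ZMod 2) W) (u : W) (hf : f u = 0) : f.smulRight u ∈ L := by
  by_cases l0 : f = 0
  · rw [show f.smulRight u = 0 from LinearMap.ext fun x => by simp [l0]]; exact zero_mem _
  by_cases c0 : u = 0
  · rw [show f.smulRight u = 0 from LinearMap.ext fun x => by simp [c0]]; exact zero_mem _
  obtain ⟨v, v0, v1⟩ : ∃ v, X v ≠ 0 ∧ X v ≠ v := by
    by_contra a
    push Not at a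
    obtain ⟨p, hp⟩ : ∃ p, X p ≠ 0 := by
      by_contra b
      push Not at b
      exact h0 (LinearMap.ext b)
    obtain ⟨q, hq⟩ : ∃ q, X q ≠ q := by
      by_contra b
      push Not at b
      exact h1 (LinearMap.ext b)
    have e1 : X q = 0 := by
      by_contra b
      exact hq (a q b)
    have e2 := a (p + q) (by simpa [e1] using hp)
    rw [map_add, a p hp] at e2
    exact hq (add_left_cancel e2)
  obtain ⟨l, l1, lv, lw⟩ := exists_dual₂ h3 v (X v)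
  obtain ⟨τ, t1, -⟩ := ex_tv l v lv
  obtain ⟨g, gv, gw⟩ := Pyr.exists_fn' (a := v) v0 v1
  obtain ⟨μ, m1, -⟩ := ex_tv g v gv
  obtain ⟨Y, hY, y1⟩ := hL τ X hX
  have z1 : ∀ x, (Y + X) x = l x • X v + l (X x) • v := fun y => by
    obtain ⟨x, rfl⟩ := τ.surjective y
    rw [LinearMap.add_apply, y1]
    simp only [t1, map_add, map_smul, lv, lw, smul_eq_mul, mul_zero, add_zero]
    rw [add_add_add_comm, as, zero_add, add_comm]
  obtain ⟨Z, hZ, y2⟩ := hL μ _ (add_mem hY hX)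
  have z2 : ∀ x, (Z + (Y + X)) x = l x • v := fun y => by
    obtain ⟨x, rfl⟩ := μ.surjective y
    rw [LinearMap.add_apply, y2]
    simp only [z1, m1, map_add, map_smul, lv, lw, gv, gw, smul_eq_mul, mul_zero, add_zero, mul_one]
    rw [add_comm, as']
  obtain ⟨ρ, r1, r2⟩ := exists_equiv_pair h3 l1 l0 (fun e => v0 (by simp [e])) c0 lv hf
  obtain ⟨T, hT, y3⟩ := hL ρ _ (add_mem hZ (add_mem hY hX))
  rwa [show f.smulRight u = T from LinearMap.ext fun y => by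
    obtain ⟨x, rfl⟩ := ρ.surjective y
    rw [y3, z2, map_smul, r1, LinearMap.smulRight_apply, r2]]

end Cfsg.Agent.Hmg
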