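import Mathlib
import Cfsg.Agent.Hmg.Ch
import Cfsg.Agent.Hmg.Lin

/-! The key lemma on squares of `2`-elements inducing transvections. -/

set_option autoImplicit false
set_option linter.unusedSectionVars false

namespace Cfsg.Agent.Hmg

open Subgroup Module Cfsg.Agent.PLocal

namespace KLP

variable {G : Type*} [Group G] [Finite G] {A : Type*} [AddCommGroup A] [Module (ZMod 2) A]
  {ι : A → G} {l m : Dual (ZMod 2) A} {c w w' : A} {x y : G}

/-- `x` acts as a transvection -/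
def At (ι : A → G) (l : Dual (ZMod 2) A) (c : A) (x : G) : Prop :=
  ∀ a, x * ι a * x⁻¹ = ι (a + l a • c)

theorem At.mul (a : At ι l c x) (b : At ι m c y) (h : l c = 0) : At ι (m + l) c (x * y) := fun v => by
  rw [show x * y * ι v * (x * y)⁻¹ = x * (y * ι v * y⁻¹) * x⁻¹ by group, b, a]
  simp [h, add_smul, add_assoc]

theorem At.inv (a : At ι l c x) (h : l c = 0) : At ι l c x⁻¹ := fun v => by
  have := a (v + l v • c)
  rw [show v + l v • c + l (v + l v • c) • c = v by simp [h, add_assoc, add_self_two]] at this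
  rw [← this]; group

theorem At.cen (hC : CX ι) (a : At ι 0 c x) (t : Two x) : ∃ u, ι u = x := hC x t fun v => by
  have := a v
  simp only [LinearMap.zero_apply, zero_smul, add_zero] at this
  exact (mul_inv_eq_iff_eq_mul.1 this).symm

theorem add_self_dual (l : Dual (ZMod 2) A) : l + l = 0 := add_self_two l

/-- the elements acting as transvections with centre `c` -/
def Hc (ι : A → G) (c : A) : Subgroup G where
  carrier := {g | ∃ f : Dual (ZMod 2) A, f c = 0 ∧ At ι f c g}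
  one_mem' := ⟨0, rfl, fun v => by simp⟩
  mul_mem' := fun ⟨_, a, a'⟩ ⟨_, b, b'⟩ => ⟨_, by simp [a, b], a'.mul b' a⟩
  inv_mem' := fun ⟨_, a, a'⟩ => ⟨_, a, a'.inv a⟩

theorem At.sq (hC : CX ι) (a : At ι l c x) (t : Two x) (h : l c = 0) :
    ∃ w, ι w = x * x ∧ x * ι w * x⁻¹ = ι w := by
  obtain ⟨w, e⟩ := At.cen hC (add_self_dual l ▸ a.mul a h) t.mul_self
  exact ⟨w, e, by rw [e]; group⟩

theorem At.into {T : Subgroup G} (hT : IsSylowIn 2 T (Hc ι c)) (a : At ι l c x) (t : Two x)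
    (h : l c = 0) : ∃ y ∈ T, At ι l c y ∧ ∀ w, ι w = x * x → ∃ s : ZMod 2, ι (w + s • c) = y * y := by
  obtain ⟨g, ⟨f, f0, b⟩, e⟩ := t.exists_conj_mem hT ⟨l, h, a⟩
  refine ⟨_, e, ?_, fun w hw => ⟨f w, by rw [← b, hw, conj_mul]⟩⟩
  have := (b.mul a f0).mul (b.inv f0) (by simp [h, f0])
  rwa [add_comm l, ← add_assoc, add_self_dual, zero_add] at this

theorem sq_mul (hι : Ch ι) (a : At ι l c x) (e : ι w = x * x) (u : A) :
    ι u * x * (ι u * x) = ι (w + l u • c) := by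
  rw [show ι u * x * (ι u * x) = ι u * (x * ι u * x⁻¹) * (x * x) by group, a, ← e, ← hι.add, ← hι.add,
    ← add_assoc, add_self_two, zero_add, add_comm]

theorem two_lifts (hι : Ch ι) (hC : CX ι) (h : l c = 0) (a : At ι l c x) (t : Two x) (b : At ι l c y)
    (t' : Two y) (e : ι w = x * x) (e' : ι w' = y * y) : ∃ s : ZMod 2, w' = w + s • c := by
  have : Fact (Nat.Prime 2) := ⟨Nat.prime_two⟩
  obtain ⟨T, hT, -⟩ := exists_isSylowIn_ge (p := 2) (H := Hc ι c) IsPGroup.of_bot bot_le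
  obtain ⟨x1, hx, a1, a2⟩ := a.into hT t h
  obtain ⟨y1, hy, b1, b2⟩ := b.into hT t' h
  obtain ⟨s, a2⟩ := a2 w e
  obtain ⟨s', b2⟩ := b2 w' e'
  obtain ⟨u, hu⟩ := At.cen hC (add_self_dual l ▸ b1.mul (a1.inv h) h)
    (Two.of_mem hT.isPGroup (mul_mem hy (inv_mem hx)))
  have := sq_mul hι a1 a2 u
  rw [hu, inv_mul_cancel_right, ← b2] at this
  refine ⟨s + l u + s', ?_⟩
  rw [add_smul, add_smul, ← add_assoc, ← add_assoc, ← hι.inj this, add_assoc, add_self_two, add_zero]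

theorem trans (hG : HG G) (hι : Ch ι) (τ : A ≃ₗ[ZMod 2] A) (tc : τ c = c) (tl : ∀ v, m (τ v) = l v)
    (a : At ι l c x) (t : Two x) (e : ι w = x * x) : ∃ y, At ι m c y ∧ Two y ∧ ι (τ w) = y * y := by
  obtain ⟨φ, hφ⟩ := hι.exists_aut hG τ
  refine ⟨φ x, fun v => ?_, t.map φ, by rw [← hφ, e, map_mul]⟩
  obtain ⟨v, rfl⟩ := τ.surjective v
  rw [← hφ, ← map_inv, ← map_mul, ← map_mul, a, hφ, map_add, map_smul, tc, tl]

theorem smul_cases (s : ZMod 2) (c : A) : s • c = 0 ∨ s • c = c := by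
  rcases Pyr.zmod_two s with rfl | rfl <;> simp

end KLP

open KLP

theorem kl_of_cx {G : Type*} [Group G] [Finite G] {A : Type*} [AddCommGroup A] [Module (ZMod 2) A]
    (hG : HG G) {ι : A → G} (hι : Ch ι) (h3 : 3 ≤ finrank (ZMod 2) A) (hT : TV ι) (hC : CX ι) :
    KL ι := by
  intro l c x h t a
  change At ι l c x at a
  have : Finite A := Finite.of_injective ι hι.inj
  have : Fact (Nat.Prime 2) := ⟨Nat.prime_two⟩
  by_cases l0 : l = 0
  · obtain ⟨u, rfl⟩ := At.cen hC (l0 ▸ a) t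
    exact Or.inl (hι.sq u)
  by_cases c0 : c = 0
  · obtain ⟨u, rfl⟩ := At.cen hC (c := c) (fun v => by simpa [c0] using a v) t
    exact Or.inl (hι.sq u)
  have fx : ∀ {f : Dual (ZMod 2) A} {s : ZMod 2} {v : A}, v + f v • c = v + s • c → f v = s :=
    fun e => smul_left_injective _ c0 (add_left_cancel e)
  obtain ⟨w, e, e'⟩ := a.sq hC t h
  by_contra hc
  push Not at hc
  have w0 : w ≠ 0 := fun b => hc.1 (by rw [← e, b, hι.zero])
  have wc : w ≠ c := fun b => hc.2 (by rw [← e, b])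
  have all : ∀ m : Dual (ZMod 2) A, m ≠ 0 → m c = 0 → ∀ y, At ι m c y → Two y →
      ∃ v, ι v = y * y ∧ v ≠ 0 ∧ v ≠ c ∧ m v = 0 := fun m m0 mc y b t' => by
    obtain ⟨v, f, f'⟩ := b.sq hC t' mc
    obtain ⟨τ, t1, t2⟩ := exists_equiv_pair h3 l0 m0 c0 c0 h mc
    obtain ⟨z, z1, z2, z3⟩ := trans hG hι τ t1 t2 a t e
    obtain ⟨s, hs⟩ := two_lifts hι hC mc z1 z2 b t' z3 f
    have k0 : τ w ≠ 0 := by simpa using w0
    have kc : τ w ≠ c := fun b => wc (τ.injective (b.trans t1.symm))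
    refine ⟨v, f, ?_, ?_, fx (by simpa using hι.inj ((b v).symm.trans f'))⟩
    · rintro rfl
      rcases smul_cases s c with b | b <;> rw [b] at hs
      · exact k0 (by simpa using hs.symm)
      · exact kc (add_right_cancel (hs.symm.trans (add_self_two c).symm))
    · rintro rfl
      rcases smul_cases s v with b | b <;> rw [b] at hs
      · exact kc (by simpa using hs.symm)
      · exact k0 (by simpa using hs.symm)
  have lw : l w = 0 := fx (by simpa using hι.inj ((a w).symm.trans e'))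
  obtain ⟨m, mc, mw⟩ := Pyr.exists_fn' w0 wc
  have m0 : m ≠ 0 := fun b => by simp [b] at mw
  have key : ∀ v, v ≠ 0 → v ≠ c → l v = 0 → m v = 0 → False := fun v v0 vc lv mv => by
    obtain ⟨τ, t1, -⟩ := Lin.ex_tv m v mv
    obtain ⟨z, z1, z2, z3⟩ := trans (m := l) hG hι τ (by simp [t1, mc]) (by simp [t1, lv]) a t e
    obtain ⟨s, hs⟩ := two_lifts hι hC h a t z1 z2 e z3
    rw [t1, mw, one_smul, add_right_inj] at hs
    exact (smul_cases s c).elim (fun b => v0 (hs.trans b)) fun b => vc (hs.trans b)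
  obtain ⟨T, hS, -⟩ := exists_isSylowIn_ge (p := 2) (H := Hc ι c) IsPGroup.of_bot bot_le
  obtain ⟨y, hy, y1, -⟩ := a.into hS t h
  obtain ⟨z', z2, z3⟩ := hT m c mc
  obtain ⟨z, hz, z1, -⟩ := At.into hS z3 z2 mc
  have tw := fun {g} (hg : g ∈ T) => Two.of_mem hS.isPGroup hg
  obtain ⟨w1, e1, a1, b1, c1⟩ := all l l0 h y y1 (tw hy)
  obtain ⟨w2, e2, a2, b2, c2⟩ := all m m0 mc z z1 (tw hz)
  obtain ⟨w3, e3, a3, b3, -⟩ := all (m + l) (fun b => by
    have := LinearMap.congr_fun b w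
    simp [mw, lw] at this) (by simp [h, mc]) _ (y1.mul z1 h) (tw (mul_mem hy hz))
  have d1 : m w1 = 1 := (Pyr.zmod_two _).resolve_left (key w1 a1 b1 c1)
  have d2 : l w2 = 1 := (Pyr.zmod_two _).resolve_left fun b => key w2 a2 b2 b c2
  obtain ⟨u, hu⟩ := At.cen hC (c := c) (x := y⁻¹ * z * (y * z⁻¹))
    (add_self_dual (m + l) ▸ ((y1.inv h).mul z1 h).mul (y1.mul (z1.inv mc) h) (by simp [h, mc]))
    (tw (mul_mem (mul_mem (inv_mem hy) hz) (mul_mem hy (inv_mem hz))))
  have mu : m u = 1 := by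
    have := y1.inv h w2
    rw [e2, ← conj_mul, show y⁻¹ * z * y⁻¹⁻¹ = ι u * z by rw [hu]; group, sq_mul hι z1 e2] at this
    exact d2 ▸ smul_left_injective _ c0 (add_left_cancel (hι.inj this))
  have lu : l u = 1 := by
    have := z1 w1
    rw [e1, ← conj_mul, show z * y * z⁻¹ = ι (u + l u • c) * y by rw [← y1, hu]; group,
      sq_mul hι y1 e1] at this
    have := smul_left_injective _ c0 (add_left_cancel (hι.inj this))
    simpa [h, d1] using this
  have : w3 = w1 + u + w2 := hι.inj (by rw [hι.add, hι.add, e1, e2, e3, hu]; group)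
  exact key w3 a3 b3 (by simp [this, c1, lu, d2, CharTwo.add_self_eq_zero])
    (by simp [this, c2, mu, d1, CharTwo.add_self_eq_zero])

end Cfsg.Agent.Hmg
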