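import Mathlib
import Cfsg.Agent.Hmg.Def
import Cfsg.Agent.CT.AutSL2

/-! Homogeneous `SL₂(q)` and `PSL₂(q)`, `q` odd.

PROOF.  Treat both at once: let `π : SL(2,F) →* G` (`π = id` or `π = mk`) with
(K) `π x = π y → y = x ∨ y = -x`, and
(A) for every `φ : G ≃* G` there are `g : GL (Fin 2) F`, `τ : F ≃+* F` with
`φ (π x) = π y → y.1 = g x^τ g⁻¹ ∨ y.1 = -(g x^τ g⁻¹)`  (for `SL₂`: `CT.aut_SL2`; for `PSL₂`: copy the
first half of the proof of `CT.aut_SL2` -- `psiL_surjective`, `graph_mem_range_two`, `eq_psiL_iff` --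
it is literally `key` there).  Let `p` be the characteristic, `ζ` a generator of `Fˣ`.
(1) `card F = p`.  Otherwise `ζ, ζ²` are not in the prime field (`t ^ p = t`; the order of `ζ²` is
`(q-1)/2 > p - 1`).  Put `u t = !![1,t;0,1]`.  `HG.pair'` for `(π (u 1), π (u ζ))` and
`(π (u 1), π (u ζ²))` (`π (u t) ∈ zpowers (π (u 1))` forces `t` to be an integer cast) gives `φ`; by
(A) and traces (`2 ≠ -2`) `g (u 1) g⁻¹ = u 1` and `g (u (τ ζ)) g⁻¹ = u ζ²`; since
`u t = 1 + t • E`, `τ ζ = ζ²`; but `τ ζ` has order `q - 1` (even) and `ζ²` has smaller order.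
[Alternative without (A): `π (u 1)` is conjugate to `π (u t)` iff `t` is a square, use `HG.isConj'`.]
(2) `card F = p`: every `τ` is the identity, so `orderOf (π x) = orderOf (π y)` implies
`tr x ^ 2 = tr y ^ 2` (`HG.of_orderOf`).  For `x = diag(ζ, ζ⁻¹)`, `y = x ^ k`, `k` coprime to `p - 1 = 2 m`:
`(ζ^2 - ζ^(2k)) (ζ^2 - ζ^(-2k)) = 0` up to a unit, so `m ∣ k - 1` or `m ∣ k + 1`.  Take `k = m + 2`
(`m` odd, forces `m ≤ 3`), `k = m/2 + 1` (`4 ∣ m`, forces `m ≤ 4`), `k = m/2 + 2` (`m ≡ 2 mod 4`, forces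
`m ≤ 6`): `p ∈ {5, 7, 13}` (`9` is not prime).
(3) `p = 13`: `M = !![0,-1;1,7]` has `M ^ 7 = ±1`, so `π M` and `π (M^2)` have the same order in
`PSL₂` (for `SL₂` take the sign with `M ^ 7 = 1`, i.e. use whichever of `±M` has order 7 in both
cases), `tr² = 49 = 10` and `(49 - 2)² = 12`.
(4) `SL₂(7)`: `M = !![0,-1;1,3]` has `M ^ 4 = -1`, `M ^ 5 = -M` has the same order 8, but
`CT.aut_SL2` preserves the trace: `3 = -3`, false. -/

set_option autoImplicit false

namespace Cfsg.Agent.Hmg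

open Matrix Subgroup Cfsg.Agent.KSG
open scoped MatrixGroups

section
variable {F : Type*} [Field F]

/-- upper unitriangular matrices -/
def uu (t : F) : SL(2, F) := ⟨!![1, t; 0, 1], by simp [det_fin_two]⟩

theorem uu_add (a b : F) : uu (a + b) = uu a * uu b :=
  Subtype.ext (show _ = (uu a).1 * (uu b).1 by simp [uu, add_comm])

theorem uu_zero : uu (0 : F) = 1 := Subtype.ext (by simp [uu, one_fin_two])

theorem uu_zpow (a : F) (n : ℤ) : uu a ^ n = uu (n * a) := by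
  have := map_zpow (MonoidHom.mk' (fun t : Multiplicative F => uu t.toAdd) fun _ _ => uu_add _ _)
    (Multiplicative.ofAdd a) n
  simpa using this.symm

theorem tr_zmod {p : ℕ} [CharP F p] (N : SL(2, ZMod p)) :
    (SpecialLinearGroup.map (ZMod.castHom (dvd_refl p) F) N).1.trace =
      ZMod.castHom (dvd_refl p) F N.1.trace := by
  rw [AddMonoidHom.map_trace]; rfl

theorem num_m {m : ℕ} (h2 : 2 ≤ m)
    (h : ∀ k, 1 ≤ k → (2 * m).Coprime k → m ∣ k - 1 ∨ m ∣ k + 1) :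
    m = 2 ∨ m = 3 ∨ m = 4 ∨ m = 6 := by
  have c2 : ∀ k j, k % 2 = 1 → j.Coprime k → (2 * j).Coprime k := fun k j hk hj =>
    Nat.Coprime.mul_left ((Nat.coprime_two_left).2 (Nat.odd_iff.2 hk)) hj
  have c3 : ∀ j, j % 2 = 1 → j.Coprime (j + 2) := fun j hj => by
    rw [add_comm, Nat.coprime_add_self_right, Nat.coprime_two_right, Nat.odd_iff]; exact hj
  obtain ⟨j, rfl | rfl | rfl⟩ : ∃ j, m = 2 * j + 1 ∨ m = 2 * (2 * j) ∨ m = 2 * (2 * j + 1) := by
    rcases Nat.even_or_odd' m with ⟨a, rfl | rfl⟩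
    · rcases Nat.even_or_odd' a with ⟨b, rfl | rfl⟩
      exacts [⟨b, .inr (.inl rfl)⟩, ⟨b, .inr (.inr rfl)⟩]
    · exact ⟨a, .inl rfl⟩
  · rcases h (2 * j + 1 + 2) (by omega) (c2 _ _ (by omega) (c3 _ (by omega))) with e | e
    · have := (Nat.dvd_add_right (dvd_refl (2 * j + 1))).1
        (show 2 * j + 1 ∣ 2 * j + 1 + 1 from e)
      have := Nat.le_of_dvd one_pos this
      omega
    · have := (Nat.dvd_add_right (dvd_refl (2 * j + 1))).1
        (show 2 * j + 1 ∣ 2 * j + 1 + 3 from e)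
      have := Nat.le_of_dvd (by norm_num) this
      omega
  · rcases h (2 * j + 1) (by omega) (c2 _ _ (by omega) (c2 _ _ (by omega) (by simp))) with e | e <;>
    · have := Nat.le_of_dvd (by omega) e
      omega
  · rcases h (2 * j + 1 + 2) (by omega)
      (c2 _ _ (by omega) (c2 _ _ (by omega) (c3 _ (by omega)))) with e | e <;>
    · have := Nat.le_of_dvd (by omega) e
      omega

theorem sl13 : ∃ N : SL(2, ZMod 13), N ^ 7 = 1 ∧ (N ^ 2).1.trace ^ 2 ≠ N.1.trace ^ 2 :=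
  ⟨⟨!![0, -1; 1, 7], by decide +kernel⟩, by decide +kernel, by decide +kernel⟩

theorem l2_core [Fintype F] (ho : Odd (Fintype.card F)) (h5 : 4 ≤ Fintype.card F)
    {G : Type*} [Group G] (π : SL(2, F) →* G) (hK : ∀ x, π x = 1 → x = 1 ∨ x = -1)
    (hA : ∀ φ : G ≃* G, ∃ (g : GL (Fin 2) F) (τ : F ≃+* F), ∀ x y, φ (π x) = π y →
      y.1 = g.1 * x.1.map τ * (g⁻¹).1 ∨ y.1 = -(g.1 * x.1.map τ * (g⁻¹).1)) (h : HG G) :
    (Fintype.card F = 5 ∨ Fintype.card F = 7) ∧ ∀ (τ : F ≃+* F) (a : F), τ a = a := by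
  classical
  obtain ⟨p, hp⟩ := CharP.exists F
  have pp : p.Prime := CharP.char_is_prime F p
  have : Fact p.Prime := ⟨pp⟩
  have hc : ringChar F ≠ 2 := fun e => by
    have := FiniteField.even_card_of_char_two e
    rw [Nat.odd_iff] at ho; omega
  have h2 : (2 : F) ≠ 0 := Ring.two_ne_zero hc
  have hi : ∀ a b : F, π (uu a) = π (uu b) → a = b := fun a b e => by
    have e1 : π (uu (a - b)) = 1 := by
      refine mul_right_cancel (b := π (uu b)) ?_
      rw [← map_mul, ← uu_add, sub_add_cancel, one_mul, e]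
    rcases hK _ e1 with e2 | e2
    · simpa [uu, sub_eq_zero] using congrArg (fun x : SL(2, F) => x.1 0 1) e2
    · have e3 : (1 : F) = -1 := by simpa [uu] using congrArg (fun x : SL(2, F) => x.1 0 0) e2
      exact absurd (by linear_combination e3) h2
  have htop : ∀ t : F, t ∈ (⊥ : Subfield F) := by
    by_contra! ht
    obtain ⟨t, ht⟩ := ht
    obtain ⟨n, hn, hn'⟩ : ∃ n : F, n ∉ (⊥ : Subfield F) ∧ ¬ IsSquare n := by
      by_contra! hh
      obtain ⟨n, hn⟩ := FiniteField.exists_nonsquare hc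
      have n0 : n ≠ 0 := by rintro rfl; exact hn ⟨0, by simp⟩
      have n1 : n ∈ (⊥ : Subfield F) := by_contra fun e => hn (hh n e)
      have t0 : t ≠ 0 := by rintro rfl; exact ht (zero_mem _)
      have n2 := hh (n * t) fun e => ht (by
        simpa [n0] using mul_mem (inv_mem n1) e)
      exact hn (by simpa [t0] using n2.div (hh t ht))
    obtain ⟨s, hs⟩ : ∃ s : F, s * s ∉ (⊥ : Subfield F) := by
      by_contra! hh
      refine ht ?_
      have e : t = ((t + 1) * (t + 1) - t * t - 1) / (1 + 1) := by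
        rw [one_add_one_eq_two]; field_simp; ring
      rw [e]
      exact div_mem (sub_mem (sub_mem (hh _) (hh _)) (one_mem _)) (add_mem (one_mem _) (one_mem _))
    have c : ∀ a : F, π (uu 1) * π (uu a) = π (uu a) * π (uu 1) := fun a => by
      rw [← map_mul, ← map_mul, ← uu_add, ← uu_add, add_comm]
    have o : ∀ a : F, π (uu a) ^ p = 1 := fun a => by
      rw [← map_pow, ← zpow_natCast, uu_zpow]; simp [uu_zero]
    have n1 : π (uu 1) ≠ 1 := fun e => one_ne_zero (hi 1 0 (by rw [e, uu_zero, map_one]))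
    have nz : ∀ a : F, a ∉ (⊥ : Subfield F) → π (uu a) ∉ zpowers (π (uu 1)) := fun a ha ⟨k, hk⟩ =>
      ha ((mem_bot_iff_intCast p F).2 ⟨k, by
        simpa using hi _ _ ((congrArg π (uu_zpow 1 k).symm).trans ((map_zpow _ _ _).trans hk))⟩)
    obtain ⟨φ, e1, e2⟩ := h.pair' pp (c n) (c (s * s)) (o _) (o _) n1 (nz _ hn) (o _) (o _) n1
      (nz _ hs)
    obtain ⟨g, τ, hg⟩ := hA φ
    have k : ∀ a b : F, φ (π (uu a)) = π (uu b) →
        b • (!![0, 1; 0, 0] : Matrix (Fin 2) (Fin 2) F) = τ a • (g.1 * !![0, 1; 0, 0] * (g⁻¹).1) := by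
      intro a b e
      have ea : (uu a).1.map τ = 1 + τ a • !![0, 1; 0, 0] := by
        ext i j; fin_cases i <;> fin_cases j <;> simp [uu]
      have eb : (uu b).1 = 1 + b • !![0, 1; 0, 0] := by
        ext i j; fin_cases i <;> fin_cases j <;> simp [uu]
      rcases hg _ _ e with e3 | e3
      · rw [ea, eb, mul_add, add_mul, mul_one, Units.mul_inv, Matrix.mul_smul, Matrix.smul_mul]
          at e3
        exact add_left_cancel e3
      · have e4 := congrArg trace e3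
        rw [trace_neg, trace_units_conj] at e4
        simp only [uu, trace_fin_two, map_apply, of_apply, cons_val', cons_val_zero, cons_val_one,
          cons_val_fin_one, map_one] at e4
        exact absurd (mul_self_eq_zero.1 (by linear_combination e4)) h2
    have k1 := k _ _ e1
    have k2 := k _ _ e2
    rw [map_one, one_smul, one_smul] at k1
    rw [← k1] at k2
    have k3 : s * s = τ n := by simpa using congrFun (congrFun k2 0) 1
    exact hn' ⟨τ.symm s, by rw [← map_mul, k3, RingEquiv.symm_apply_apply]⟩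
  have hτ : ∀ (τ : F ≃+* F) (a : F), τ a = a := fun τ a => by
    obtain ⟨n, rfl⟩ := (mem_bot_iff_intCast p F).1 (htop a)
    exact map_intCast τ n
  have hq : Fintype.card F = p := by
    rw [← Subfield.card_bot F p, ← Nat.card_eq_fintype_card]
    exact (Nat.card_congr (Equiv.subtypeUnivEquiv htop)).symm
  refine ⟨?_, hτ⟩
  have T : ∀ x y : SL(2, F), orderOf (π x) = orderOf (π y) → y.1.trace ^ 2 = x.1.trace ^ 2 := by
    intro x y e
    obtain ⟨φ, hφ⟩ := h.of_orderOf e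
    obtain ⟨g, τ, hg⟩ := hA φ
    have e1 : x.1.map τ = x.1 := Matrix.ext fun i j => hτ τ _
    rcases hg _ _ hφ with e2 | e2 <;> rw [e2, e1]
    · rw [trace_units_conj]
    · rw [trace_neg, trace_units_conj, neg_sq]
  obtain ⟨ζ, hζ⟩ := IsCyclic.exists_ofOrder_eq_natCard (α := Fˣ)
  obtain ⟨m, hm⟩ := ho
  rw [Nat.card_units, Nat.card_eq_fintype_card, hm, Nat.add_sub_cancel] at hζ
  let D : Fˣ →* SL(2, F) := MonoidHom.mk'
    (fun a => ⟨!![a.1, 0; 0, (a⁻¹).1], by simp [det_fin_two]⟩) fun a b =>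
      Subtype.ext (show _ = !![a.1, 0; 0, (a⁻¹).1] * !![b.1, 0; 0, (b⁻¹).1] by simp [mul_comm])
  have hD : ∀ a, (D a).1.trace = a.1 + (a⁻¹).1 := fun a => trace_fin_two_of _ _ _ _
  have hn := num_m (m := m) (by omega) fun k hk hco => by
    have e1 : orderOf (π (D ζ)) ∣ 2 * m := hζ ▸ orderOf_map_dvd (π.comp D) ζ
    have e2 := T (D ζ) (D (ζ ^ k))
      (by rw [map_pow, map_pow, (hco.coprime_dvd_left e1).orderOf_pow])
    rw [hD, hD] at e2
    obtain ⟨j, rfl⟩ := Nat.exists_eq_add_of_le' hk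
    have e3 : (((ζ ^ (2 * j) : Fˣ) : F) - 1) * (((ζ ^ (2 * (j + 1 + 1)) : Fˣ) : F) - 1) = 0 := by
      have z0 := ζ.ne_zero
      simp only [Units.val_inv_eq_inv_val, Units.val_pow_eq_pow_val] at e2 ⊢
      field_simp at e2
      refine mul_left_cancel₀ (pow_ne_zero 2 z0) ?_
      linear_combination e2
    rcases mul_eq_zero.1 e3 with e4 | e4 <;>
      rw [sub_eq_zero, Units.val_eq_one, ← orderOf_dvd_iff_pow_eq_one, hζ,
        Nat.mul_dvd_mul_iff_left two_pos] at e4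
    exacts [.inl e4, .inr e4]
  rcases hn with rfl | rfl | rfl | rfl
  · exact .inl hm
  · exact .inr hm
  · exact absurd (hq.symm.trans hm ▸ pp) (by norm_num)
  · obtain rfl : p = 13 := hq.symm.trans hm
    obtain ⟨N, hN, hN'⟩ := sl13
    let f := SpecialLinearGroup.map (n := Fin 2) (ZMod.castHom (dvd_refl 13) F)
    have e1 : orderOf (π (f N)) ∣ 7 := orderOf_dvd_of_pow_eq_one (by
      rw [← map_pow, ← map_pow, hN, map_one, map_one])
    have e2 := T (f N) (f (N ^ 2)) (by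
      rw [map_pow, map_pow, (Nat.Coprime.coprime_dvd_left e1 (by norm_num)).orderOf_pow])
    rw [tr_zmod, tr_zmod, ← map_pow, ← map_pow] at e2
    exact absurd ((ZMod.castHom (dvd_refl 13) F).injective e2) hN'

theorem aut_PSL2 [Finite F] (φ : PSL(2, F) ≃* PSL(2, F)) :
    ∃ (g : GL (Fin 2) F) (τ : F ≃+* F), ∀ x y : SL(2, F), φ (QuotientGroup.mk x) = QuotientGroup.mk y →
      y.1 = g.1 * x.1.map τ * (g⁻¹).1 ∨ y.1 = -(g.1 * x.1.map τ * (g⁻¹).1) := by
  obtain ⟨g, τ, h⟩ : ∃ (g : GL (Fin 2) F) (τ : F ≃+* F),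
      (φ : MulAut _) = psiL (Fin 2) F ⟨g, τ, 1⟩ := by
    obtain ⟨⟨g, τ, e⟩, h⟩ := psiL_surjective (ι := Fin 2) (F := F) (by simp) φ
    obtain ⟨J, hJ⟩ := graph_mem_range_two (F := F)
    rcases c2_cases e with rfl | rfl
    · exact ⟨g, τ, h.symm⟩
    · refine ⟨g * glAct _ τ J, τ, ?_⟩
      rw [← h, psiL_eq_mul, psiL_eq_mul (g * _), map_mul, mul_assoc]
      congr 1
      have := psiL_inr_conj (ι := Fin 2) (F := F) (τ, 1) J
      rw [glAct2_one] at this
      rw [← this, hJ, ← map_mul, ← map_mul]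
      simp
  refine ⟨g, τ, fun x z e => ?_⟩
  have hdet : (g.1 * x.1.map τ * (g⁻¹).1).det = 1 := by
    rw [Matrix.det_units_conj]
    exact ((τ : F →+* F).map_det x.1).symm.trans (by rw [x.2, map_one])
  obtain ⟨y, hy⟩ : ∃ y : SL(2, F), y.1 = g.1 * x.1.map τ * (g⁻¹).1 := ⟨⟨_, hdet⟩, rfl⟩
  have := (eq_psiL_iff _ _).1 h x y (Units.ext (by rw [glAct2_one]; exact hy))
  rw [← hy]
  rcases RootSub.sl2_mem_center_iff.1 (QuotientGroup.eq.1 (this.symm.trans e)) with h | h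
  · rw [inv_mul_eq_one] at h
    exact Or.inl (congrArg Subtype.val h).symm
  · rw [inv_mul_eq_iff_eq_mul, mul_neg, mul_one] at h
    exact Or.inr (congrArg Subtype.val h)

end

theorem sl7 : ∃ N : SL(2, ZMod 7), N ^ 8 = 1 ∧ (N ^ 5).1.trace ≠ N.1.trace :=
  ⟨⟨!![0, -1; 1, 3], by decide +kernel⟩, by decide +kernel, by decide +kernel⟩

theorem HG.psl2 {F : Type*} [Field F] [Fintype F] (ho : Odd (Fintype.card F))
    (h5 : 5 ≤ Fintype.card F) (h : HG (Matrix.ProjectiveSpecialLinearGroup (Fin 2) F)) :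
    Fintype.card F = 5 ∨ Fintype.card F = 7 :=
  (l2_core ho (by omega) (QuotientGroup.mk' _)
    (fun _ e => RootSub.sl2_mem_center_iff.1 ((QuotientGroup.eq_one_iff _).1 e)) aut_PSL2 h).1

theorem HG.sl2 {F : Type*} [Field F] [Fintype F] (ho : Odd (Fintype.card F))
    (h3 : 3 < Fintype.card F) (h : HG (Matrix.SpecialLinearGroup (Fin 2) F)) :
    Fintype.card F = 5 := by
  obtain ⟨h1, hτ⟩ := l2_core ho h3 (MonoidHom.id _) (fun _ e => .inl e) (fun φ => by
    obtain ⟨g, τ, hg⟩ := CT.aut_SL2 φ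
    exact ⟨g, τ, fun x y e => .inl ((congrArg Subtype.val e).symm.trans (hg x))⟩) h
  refine h1.resolve_right fun h7 => ?_
  have : Fact (Nat.Prime 7) := ⟨by norm_num⟩
  have : CharP F 7 := charP_of_card_eq_prime h7
  obtain ⟨N, hN, hN'⟩ := sl7
  let f := SpecialLinearGroup.map (n := Fin 2) (ZMod.castHom (dvd_refl 7) F)
  have e1 : orderOf (f N) ∣ 8 := orderOf_dvd_of_pow_eq_one (by
    rw [← map_pow, hN, map_one])
  obtain ⟨φ, hφ⟩ := h.of_orderOf (x := f N) (y := f (N ^ 5)) (by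
    rw [map_pow, (Nat.Coprime.coprime_dvd_left e1 (by norm_num)).orderOf_pow])
  obtain ⟨g, τ, hg⟩ := CT.aut_SL2 φ
  have e2 := congrArg trace (hg (f N))
  rw [hφ, trace_units_conj, show (f N).1.map τ = (f N).1 from Matrix.ext fun i j => hτ τ _,
    tr_zmod, tr_zmod] at e2
  exact hN' ((ZMod.castHom (dvd_refl 7) F).injective e2)

end Cfsg.Agent.Hmg
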